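import Cfsg.Agent.Comp.Ev
import Cfsg.Agent.Comp.MatModel

/-!
Classes of elements of order `3` in a `3`-group with a central series (tree certificates), and
automorphisms of a simple group given by an intertwining permutation.
-/

set_option autoImplicit false

namespace Cfsg.Agent.Comp.CT

open Subgroup

section Abs
variable {A : Type*} [Group A] {S : Subgroup A} {s r : A} {l L : List A}

/-- The subgroup generated by a list. -/
def cl (l : List A) : Subgroup A := closure {x | x ∈ l}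

theorem mem_cl {x : A} (h : x ∈ l) : x ∈ cl l := subset_closure h

theorem cl_le {H : Subgroup A} (h : ∀ x ∈ l, x ∈ H) : cl l ≤ H := (closure_le _).2 h

theorem cl_mono (s : A) (l : List A) : cl l ≤ cl (s :: l) :=
  cl_le fun _ h => mem_cl (List.mem_cons_of_mem _ h)

theorem eq_one_of_nil {x : A} (h : x ∈ cl ([] : List A)) : x = 1 :=
  mem_bot.1 (cl_le (H := ⊥) (fun _ h => absurd h List.not_mem_nil) h)

/-- A central series of `S` with factors of order dividing `3`. -/
def CS (S : Set A) : List A → Prop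
  | [] => True
  | s :: l => s ^ 3 ∈ cl l ∧ (∀ c ∈ S, c * s * c⁻¹ * s⁻¹ ∈ cl l) ∧ s ∈ S ∧ CS S l

theorem CS.norm (h : CS (S : Set A) l) : ∀ c ∈ S, ∀ n ∈ cl l, c * n * c⁻¹ ∈ cl l := by
  induction l with
  | nil => intro c _ n hn; rw [eq_one_of_nil hn]; simp
  | cons s l ih =>
    intro c hc n hn
    refine cl_le (H := (cl (s :: l)).comap (MulAut.conj c).toMonoidHom) (fun x hx => ?_) hn
    change c * x * c⁻¹ ∈ cl (s :: l)
    rcases List.mem_cons.1 hx with rfl | hx
    · have := mul_mem (cl_mono x l (h.2.1 c hc)) (mem_cl (l := x :: l) List.mem_cons_self)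
      rwa [inv_mul_cancel_right] at this
    · exact cl_mono s l (ih h.2.2.2 c hc x (mem_cl hx))

theorem CS.le (h : CS (S : Set A) l) : cl l ≤ S := by
  induction l with
  | nil => exact cl_le fun _ h => absurd h List.not_mem_nil
  | cons s l ih =>
    exact cl_le (List.forall_mem_cons.2 ⟨h.2.2.1, fun x hx => ih h.2.2.2 (mem_cl hx)⟩)

theorem CS.of_gen (h : CS {x | x ∈ L} l) : CS (cl L : Set A) l := by
  induction l with
  | nil => trivial
  | cons s l ih =>
    have h' := ih h.2.2.2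
    refine ⟨h.1, fun c hc => ?_, mem_cl h.2.2.1, h'⟩
    induction hc using closure_induction with
    | mem x hx => exact h.2.1 x hx
    | one => simp
    | mul x y hx _ a b =>
      convert mul_mem (h'.norm x hx _ b) a using 1
      group
    | inv x hx a =>
      convert h'.norm _ (inv_mem hx) _ (inv_mem a) using 1
      group

theorem CS.dec (h : CS (S : Set A) (s :: l)) {x : A} (hx : x ∈ cl (s :: l)) :
    ∃ n ∈ cl l, x = n ∨ x = s * n ∨ x = s⁻¹ * n := by
  have hs : s ∈ S := h.2.2.1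
  have h1 := h.2.2.2.norm s hs
  have h2 := h.2.2.2.norm _ (inv_mem hs)
  induction hx using closure_induction_left with
  | one => exact ⟨1, one_mem _, Or.inl rfl⟩
  | mul_left y hy x _ ih =>
    obtain ⟨n, hn, e⟩ := ih
    rcases List.mem_cons.1 hy with rfl | hy
    · rcases e with rfl | rfl | rfl
      · exact ⟨_, hn, Or.inr (Or.inl rfl)⟩
      · exact ⟨_, mul_mem h.1 hn, Or.inr (Or.inr (by rw [pow_three]; group))⟩
      · exact ⟨_, hn, Or.inl (by group)⟩
    · rcases e with rfl | rfl | rfl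
      · exact ⟨_, mul_mem (mem_cl hy) hn, Or.inl rfl⟩
      · exact ⟨_, mul_mem (h2 _ (mem_cl hy)) hn, Or.inr (Or.inl (by group))⟩
      · exact ⟨_, mul_mem (h1 _ (mem_cl hy)) hn, Or.inr (Or.inr (by group))⟩
  | inv_mul_cancel y hy x _ ih =>
    obtain ⟨n, hn, e⟩ := ih
    rcases List.mem_cons.1 hy with rfl | hy
    · rcases e with rfl | rfl | rfl
      · exact ⟨_, hn, Or.inr (Or.inr rfl)⟩
      · exact ⟨_, hn, Or.inl (by group)⟩
      · exact ⟨_, mul_mem (inv_mem h.1) hn, Or.inr (Or.inl (by group))⟩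
    · rcases e with rfl | rfl | rfl
      · exact ⟨_, mul_mem (inv_mem (mem_cl hy)) hn, Or.inl rfl⟩
      · exact ⟨_, mul_mem (h2 _ (inv_mem (mem_cl hy))) hn, Or.inr (Or.inl (by group))⟩
      · exact ⟨_, mul_mem (h1 _ (inv_mem (mem_cl hy))) hn, Or.inr (Or.inr (by group))⟩

theorem CS.cube (h : CS (S : Set A) l) (hr : r ∈ S) {n : A} (hn : n ∈ cl l) :
    ∃ m ∈ cl l, (r * n) ^ 3 = r ^ 3 * m := by
  have h1 := h.norm _ (inv_mem hr)
  exact ⟨_, mul_mem (mul_mem (h1 _ (h1 _ hn)) (h1 _ hn)) hn, by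
    simp only [pow_succ, pow_zero]; group⟩

theorem CS.pow (h : CS (S : Set A) l) : ∀ x ∈ cl l, x ^ 3 ^ l.length = 1 := by
  induction l with
  | nil => intro x hx; rw [eq_one_of_nil hx, one_pow]
  | cons s l ih =>
    intro x hx
    rw [List.length_cons, pow_succ', pow_mul]
    refine ih h.2.2.2 _ ?_
    obtain ⟨n, hn, rfl | rfl | rfl⟩ := h.dec hx
    · exact pow_mem hn 3
    · obtain ⟨m, hm, e⟩ := h.2.2.2.cube h.2.2.1 hn
      exact e ▸ mul_mem h.1 hm
    · obtain ⟨m, hm, e⟩ := h.2.2.2.cube (inv_mem (s := S) h.2.2.1) hn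
      rw [e, inv_pow]; exact mul_mem (inv_mem h.1) hm

theorem CS.isPGroup (h : CS (S : Set A) l) : IsPGroup 3 (cl l) := fun x =>
  ⟨l.length, Subtype.ext (h.pow x x.2)⟩

/-- The elements of order dividing `3` in the coset of `r` are conjugate to members of `R`. -/
def Cl (R : Set A) (l : List A) (r : A) : Prop :=
  ∀ n ∈ cl l, (r * n) ^ 3 = 1 → ∃ y ∈ R, IsConj (r * n) y

variable {R : Set A}

theorem Cl.br (h : CS (S : Set A) (s :: l)) (h0 : Cl R l r) (h1 : Cl R l (r * s))
    (h2 : Cl R l (r * s⁻¹)) : Cl R (s :: l) r := by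
  intro x hx
  obtain ⟨n, hn, rfl | rfl | rfl⟩ := h.dec hx
  · exact h0 _ hn
  · rw [← mul_assoc]; exact h1 _ hn
  · rw [← mul_assoc]; exact h2 _ hn

theorem Cl.conj (h0 : Cl R l r) {r' c : A}
    (h : ∀ n ∈ cl l, ∃ m ∈ cl l, c * (r' * n) * c⁻¹ = r * m) : Cl R l r' := by
  intro n hn h3
  obtain ⟨m, hm, e⟩ := h n hn
  obtain ⟨y, hy, h4⟩ := h0 m hm (by rw [← e, conj_pow, h3]; group)
  exact ⟨y, hy, (isConj_iff.2 ⟨c, e⟩).trans h4⟩

theorem Cl.mg (h : CS (S : Set A) (s :: l)) {c w : A} (hc : c ∈ S) (hw : w ∈ cl l)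
    (e : c * r = r * (s * (w * c))) (h0 : Cl R l r) : Cl R (s :: l) r := by
  have n1 := h.2.2.2.norm
  refine Cl.br h h0 (h0.conj (c := c⁻¹) fun n hn =>
      ⟨_, n1 _ (inv_mem hc) _ (mul_mem (inv_mem hw) hn), ?_⟩)
    (h0.conj (c := c) fun n hn => ⟨_, mul_mem (mul_mem (n1 s h.2.2.1 w hw)
      (inv_mem (h.2.1 c hc))) (n1 c hc n hn), ?_⟩)
  · calc _ = c⁻¹ * (r * (s * (w * c))) * c⁻¹ * w⁻¹ * n * c := by group
      _ = _ := by rw [← e]; group
  · calc _ = c * r * s⁻¹ * n * c⁻¹ := by group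
      _ = _ := by rw [e]; group

theorem Cl.nt (h : CS (S : Set A) l) (hr : r ∈ S) {H : Subgroup A} (hl : ∀ x ∈ l, x ∈ H)
    (h3 : r ^ 3 ∉ H) : Cl R l r := fun n hn e => by
  obtain ⟨m, hm, e'⟩ := h.cube hr hn
  refine absurd ?_ h3
  rw [eq_inv_of_mul_eq_one_left (e'.symm.trans e)]
  exact inv_mem (cl_le hl hm)

theorem Cl.lf {g y : A} (hy : y ∈ R) (e : g * r = y * g) : Cl R [] r := fun n hn _ =>
  ⟨y, hy, by rw [eq_one_of_nil hn, mul_one]; exact isConj_iff.2 ⟨g, by rw [e]; group⟩⟩

end Abs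

variable {A : Type*} [Group A] {G : Subgroup (Equiv.Perm ℕ)} {N w K : ℕ} {ns : List Net}
  {ws : List (List ℕ)}

/-- The elements of a list of letters. -/
noncomputable def lts (e : A ≃* G) (ns : List Net) (ss : List ℕ) : List A :=
  ss.map fun a => ev e ns [a]

/-- The letters of `u` are in `ss` up to inversion. -/
noncomputable def inL (ss u : List ℕ) : Bool :=
  allL u fun a => force (Nat.xor a 1) fun a' => anyL ss fun s => or' (Nat.beq a s) (Nat.beq a' s)

theorem ev_xor (e : A ≃* G) (a : ℕ) : ev e ns [Nat.xor a 1] = (ev e ns [a])⁻¹ :=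
  ev_invW e ns [a]

theorem mem_of_inL (e : A ≃* G) {ss u : List ℕ} (h : inL ss u = true) :
    ev e ns u ∈ cl (lts e ns ss) := by
  rw [inL, allL_iff] at h
  induction u with
  | nil => exact one_mem _
  | cons a u ih =>
    rw [show a :: u = [a] ++ u from rfl, ev_append]
    refine mul_mem ?_ (ih fun b hb => h b (List.mem_cons_of_mem _ hb))
    have := h a List.mem_cons_self
    simp only [force_eq, anyL_iff, or'_eq_true, beq_iff] at this
    obtain ⟨s, hs, rfl | rfl⟩ := this
    · exact mem_cl (List.mem_map.2 ⟨_, hs, rfl⟩)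
    · rw [← inv_mem_iff, ← ev_xor]; exact mem_cl (List.mem_map.2 ⟨_, hs, rfl⟩)

/-- The relations of a central series. -/
noncomputable def csB (q : List ℕ → List ℕ → Bool) (L ss : List ℕ) :
    List (List ℕ × List (List ℕ)) → Bool :=
  List.rec (motive := fun _ => List (List ℕ × List (List ℕ)) → Bool) (fun _ => true)
    (fun s rest ih hs => List.rec (motive := fun _ => Bool) false (fun x hs' _ =>
      and' (and' (inL rest x.1) (q [s, s, s] x.1)) (and' (all2 (fun c u => and' (inL rest u)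
        (q [c, s] (appendR u [s, c]))) L x.2) (and' (anyL L (Nat.beq s)) (ih hs')))) hs) ss

theorem cs_of {e : A ≃* G} {q : List ℕ → List ℕ → Bool} (hq : QS e ns q) {L ss : List ℕ}
    {hs : List (List ℕ × List (List ℕ))} (h : csB q L ss hs = true) :
    CS (cl (lts e ns L) : Set A) (lts e ns ss) := by
  refine CS.of_gen ?_
  induction ss generalizing hs with
  | nil => trivial
  | cons s rest ih =>
    cases hs with
    | nil => exact absurd h Bool.false_ne_true
    | cons x hs =>
      change and' _ (and' _ (and' _ (csB q L rest hs))) = true at h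
      simp only [and'_eq_true, anyL_iff, beq_iff] at h
      obtain ⟨⟨h1, h2⟩, h3, ⟨_, h4, rfl⟩, h5⟩ := h
      refine ⟨?_, fun c hc => ?_, List.mem_map.2 ⟨_, h4, rfl⟩, ih h5⟩
      · have := hq _ _ h2 ▸ mem_of_inL (ns := ns) e h1
        rw [show [s, s, s] = [s] ++ [s] ++ [s] from rfl, ev_append, ev_append] at this
        rwa [pow_three']
      · obtain ⟨c, hc', rfl⟩ := List.mem_map.1 hc
        have h6 := forall₂_of_all2 h3
        generalize x.2 = us at h6
        clear h3 h4 hc h5 ih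
        induction h6 with
        | nil => exact absurd hc' List.not_mem_nil
        | @cons c' u _ _ h7 _ ih =>
          rcases List.mem_cons.1 hc' with rfl | hc'
          · rw [and'_eq_true] at h7
            have h8 := hq _ _ h7.2
            rw [ev_appendR, show [c, s] = [c] ++ [s] from rfl, show [s, c] = [s] ++ [c] from rfl,
              ev_append, ev_append] at h8
            have h9 := mem_of_inL (ns := ns) e h7.1
            rw [show ev e ns u = ev e ns [c] * ev e ns [s] * (ev e ns [c])⁻¹ * (ev e ns [s])⁻¹ by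
              rw [h8]; group] at h9
            exact h9
          · exact ih hc'

/-- Certificates. -/
inductive Tr
  | nt (p : ℕ)
  | lf (i : ℕ) (g : List ℕ)
  | mg (c u : List ℕ) (t : Tr)
  | br (a b c : Tr)

/-- The check of a certificate. -/
noncomputable def chk (N : ℕ) (E : List ℕ → ℕ → ℕ) (K : ℕ) (q : List ℕ → List ℕ → Bool)
    (L : List ℕ) (reps : List (List ℕ)) (t : Tr) : List ℕ → List ℕ → Bool :=
  Tr.rec (motive := fun _ => List ℕ → List ℕ → Bool)
    (fun p ss r => and' (and' (Nat.blt p N) (and' (inK K ss) (and' (inK K r) (inL L r))))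
      (and' (allL ss fun s => Nat.beq (evL E [s] p) p)
        (not' (Nat.beq (evL E r (evL E r (evL E r p))) p))))
    (fun i g ss r => List.rec (motive := fun _ => Bool)
      (q (appendR g r) (appendR (getL [] reps i) g)) (fun _ _ _ => false) ss)
    (fun c u _ ih ss r => List.rec (motive := fun _ => Bool) false (fun s ss' _ =>
      and' (and' (inL L c) (inL ss' u))
        (and' (q (appendR c r) (appendR r (s :: appendR u c))) (ih ss' r))) ss)
    (fun _ _ _ ih0 ih1 ih2 ss r => List.rec (motive := fun _ => Bool) false (fun s ss' _ =>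
      and' (ih0 ss' r) (and' (ih1 ss' (appendR r [s]))
        (force (Nat.xor s 1) fun s' => ih2 ss' (appendR r [s'])))) ss) t

/-- The values of the representatives. -/
def Rs (e : A ≃* G) (ns : List Net) (reps : List (List ℕ)) : Set A :=
  {y | ∃ i, y = ev e ns (reps.getD i [])}

/-- The claim of a node. -/
def ClW (e : A ≃* G) (ns : List Net) (L : List ℕ) (reps : List (List ℕ)) (ss r : List ℕ) : Prop :=
  CS (cl (lts e ns L) : Set A) (lts e ns ss) → Cl (Rs e ns reps) (lts e ns ss) (ev e ns r)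

theorem ClW.br {e : A ≃* G} {L : List ℕ} {reps : List (List ℕ)} {s : ℕ} {ss r : List ℕ}
    (h0 : ClW e ns L reps ss r) (h1 : ClW e ns L reps ss (appendR r [s]))
    (h2 : ClW e ns L reps ss (appendR r [Nat.xor s 1])) : ClW e ns L reps (s :: ss) r := fun h =>
  Cl.br h (h0 h.2.2.2) (by have := h1 h.2.2.2; rwa [ev_appendR] at this)
    (by have := h2 h.2.2.2; rwa [ev_appendR, ev_xor] at this)

theorem clW_of (m : Mo N w ns G K) {E : List ℕ → ℕ → ℕ} (hE : Evl N ns E) {e : A ≃* G}
    {q : List ℕ → List ℕ → Bool} (hq : QS e ns q) {L : List ℕ} {reps : List (List ℕ)} {t : Tr}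
    {ss r : List ℕ} (h : chk N E K q L reps t ss r = true) : ClW e ns L reps ss r := by
  induction t generalizing ss r with
  | nt p =>
    change and' _ _ = true at h
    simp only [and'_eq_true, blt_iff, allL_iff, beq_iff, not'_eq_true] at h
    obtain ⟨⟨h1, h2, h3, h4⟩, h5, h6⟩ := h
    have hv := evl_evL m.c.ok hE
    refine fun hc => Cl.nt hc (mem_of_inL e h4)
      (H := (MulAction.stabilizer (Equiv.Perm ℕ) p).comap (pm e)) (fun x hx => ?_) fun h7 => h6 ?_
    · obtain ⟨s, hs, rfl⟩ := List.mem_map.1 hx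
      change pm e _ p = p
      rw [m.k.pm_ev e ((allL_iff _ _).2 (List.forall_mem_singleton.2 ((allL_iff _ _).1 h2 s hs))),
        ← hv _ _ h1, h5 s hs]
    · change pm e _ p = p at h7
      rw [map_pow, m.k.pm_ev e h3, pow_three] at h7
      have s := supp_wp m.c.ok r
      rw [hv _ _ h1, hv _ _ (s.lt h1), hv _ _ (s.lt (s.lt h1))]
      exact h7
  | lf i g =>
    cases ss with
    | cons s ss => exact absurd h Bool.false_ne_true
    | nil =>
      have := hq _ _ h
      rw [ev_appendR, ev_appendR, getL_eq] at this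
      exact fun _ => Cl.lf ⟨i, rfl⟩ this
  | mg c u t ih =>
    cases ss with
    | nil => exact absurd h Bool.false_ne_true
    | cons s ss =>
      change and' _ (and' _ (chk N E K q L reps t ss r)) = true at h
      simp only [and'_eq_true] at h
      have := hq _ _ h.2.1
      rw [ev_appendR, ev_appendR, show s :: appendR u c = [s] ++ appendR u c from rfl, ev_append,
        ev_appendR] at this
      exact fun hc => Cl.mg hc (mem_of_inL e h.1.1) (mem_of_inL e h.1.2) this (ih h.2.2 hc.2.2.2)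
  | br a b c iha ihb ihc =>
    cases ss with
    | nil => exact absurd h Bool.false_ne_true
    | cons s ss =>
      change and' (chk N E K q L reps a ss r) (and' (chk N E K q L reps b ss _)
        (force (Nat.xor s 1) fun s' => chk N E K q L reps c ss (appendR r [s']))) = true at h
      simp only [and'_eq_true, force_eq] at h
      exact ClW.br (iha h.1) (ihb h.2.1) (ihc h.2.2)

theorem conj_mem {A : Type*} [Group A] [Finite A] {p : ℕ} [Fact p.Prime] {C : Subgroup A}
    (h : ¬ Nat.card C * p ∣ Nat.card A) {x : A} (e : x ^ p = 1) : ∃ g, g * x * g⁻¹ ∈ C := by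
  have hP : IsPGroup p (zpowers x) := fun ⟨_, n, rfl⟩ => ⟨1, Subtype.ext (by
    change (x ^ n) ^ p ^ 1 = 1
    rw [pow_one, ← zpow_natCast, ← zpow_mul, mul_comm, zpow_mul, zpow_natCast, e, one_zpow])⟩
  obtain ⟨a, ha⟩ := hP.nonempty_fixed_point_of_prime_not_dvd_card (A ⧸ C) fun d => h (by
    rw [← C.card_mul_index]
    exact Nat.mul_dvd_mul_left _ d)
  obtain ⟨g, rfl⟩ := QuotientGroup.mk_surjective a
  have := QuotientGroup.eq.1 (ha ⟨_, mem_zpowers _⟩).symm
  exact ⟨g⁻¹, by simpa [mul_assoc] using this⟩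

/-- All elements of order dividing `3` are conjugate to representatives. -/
theorem cover (m : Mo N w ns G K) {e : A ≃* G} {L : List ℕ} {reps : List (List ℕ)}
    (hs : CS (cl (lts e ns L) : Set A) (lts e ns L)) (h : ClW e ns L reps L []) {k : ℕ}
    (hk : ¬ 3 ^ (k + 1) ∣ Nat.card A) (B : List (ℕ × ℕ × List (List ℕ)))
    (hB : and' (allL (lbTop B) (inL L))
      (and' (allL (lbTop B) (inK K)) (Nat.ble (Nat.pow 3 k) (lbVal N w ns B))) = true)
    {x : A} (hx : x ^ 3 = 1) : ∃ i, IsConj x (ev e ns (reps.getD i [])) := by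
  have : Fact (Nat.Prime 3) := ⟨Nat.prime_three⟩
  have := m.finite e
  rw [and'_eq_true] at hB
  have h1 : 3 ^ k ≤ Nat.card (cl (lts e ns L)) :=
    m.le_card e hB.2 fun u hu => mem_of_inL e ((allL_iff _ _).1 hB.1 u hu)
  obtain ⟨j, hj⟩ := hs.isPGroup.exists_card_eq
  obtain ⟨g, hg⟩ := conj_mem (C := cl (lts e ns L)) (fun d => hk (dvd_trans (by
    rw [hj] at h1 ⊢
    rw [← pow_succ]
    exact pow_dvd_pow _ (Nat.succ_le_succ ((Nat.pow_le_pow_iff_right (by norm_num)).1 h1))) d)) hx
  obtain ⟨_, ⟨i, rfl⟩, hy⟩ := h hs _ hg (by rw [ev_nil, one_mul, conj_pow, hx]; group)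
  rw [ev_nil, one_mul] at hy
  exact ⟨i, (isConj_iff.2 ⟨g, rfl⟩).trans hy⟩

/-! ### Automorphisms -/

/-- `t` intertwines the action on its image with the action twisted by `α` on the points `< n`. -/
def Tw (e : A ≃* G) (n : ℕ) (t : Equiv.Perm ℕ) (α : MulAut A) : Prop :=
  ∀ g, ∀ i < n, pm e g (t i) = t (pm e (α g) i)

/-- The points `< n` are permuted and contain a base. -/
structure Blk (N : ℕ) (G : Subgroup (Equiv.Perm ℕ)) (n : ℕ) (bs : List ℕ) : Prop where
  le : n ≤ N
  bas : Bas N G bs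
  lt : ∀ b ∈ bs, b < n
  inv : ∀ g ∈ G, ∀ i, g i < n ↔ i < n

theorem blk_of (c : Ctx N w ns) {ws : List (List ℕ)} {n : ℕ} {bs : List ℕ}
    (hb : Bas N (gen ns ws) bs) (h : and' (Nat.ble n N) (and' (allL bs fun b => Nat.blt b n)
      (invAll ns ws (ones n))) = true) : Blk N (gen ns ws) n bs := by
  simp only [and'_eq_true, ble_iff, allL_iff, blt_iff] at h
  exact ⟨h.1, hb, h.2.1, fun g hg i => by
    simpa [testBit_ones] using inv_of_invAll c.ok h.2.2 hg i⟩

theorem exists_aut [IsSimpleGroup A] (m : Mo N w ns (gen ns ws) K) {E : List ℕ → ℕ → ℕ}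
    (hE : Evl N ns E) (e : A ≃* gen ns ws) {n : ℕ} {bs : List ℕ} (b : Blk N (gen ns ws) n bs)
    (τ : ℕ) (vs : List (List ℕ)) (u : List ℕ) (p : ℕ)
    (h : and' (all2 (fun u v => and' (and' (inK K u) (inK K v)) (allB n fun i =>
      Nat.beq (evL E u (evL E [τ] i)) (evL E [τ] (evL E v i)))) ws vs)
      (and' (and' (inK K u) (Nat.blt p n))
        (not' (Nat.beq (evL E u (evL E [τ] p)) (evL E [τ] p)))) = true) :
    ∃ α : MulAut A, Tw e n (wp ns [τ]) α := by
  have := m.finite e
  have hv := evl_evL m.c.ok hE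
  have st := supp_wp m.c.ok [τ]
  simp only [and'_eq_true, blt_iff, not'_eq_true, beq_iff] at h
  obtain ⟨h1, ⟨h2, h3⟩, h4⟩ := h
  generalize ht : wp ns [τ] = t at st
  let R : A → A → Prop := fun g h => ∀ i < n, pm e g (t i) = t (pm e h i)
  have mul : ∀ g h g' h', R g h → R g' h' → R (g * g') (h * h') := fun g h g' h' a a' i hi => by
    rw [map_mul, map_mul, Equiv.Perm.mul_apply, Equiv.Perm.mul_apply, a' i hi,
      a _ ((b.inv _ (pm_mem e h') i).2 hi)]
  have uq : ∀ g h h', R g h → R g h' → h = h' := fun g h h' a a' => pm_inj e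
    (b.bas.2 _ (pm_mem e h) _ (pm_mem e h') fun x hx =>
      t.injective ((a x (b.lt x hx)).symm.trans (a' x (b.lt x hx))))
  let H : Subgroup A :=
    { carrier := {g | ∃ h, R g h}
      one_mem' := ⟨1, fun i _ => by simp⟩
      mul_mem' := fun ⟨_, a⟩ ⟨_, a'⟩ => ⟨_, mul _ _ _ _ a a'⟩
      inv_mem' := fun {g} ⟨h, a⟩ => ⟨h⁻¹, fun i hi => by
        have := a _ ((b.inv _ (pm_mem e h⁻¹) i).2 hi)
        rw [← Equiv.Perm.mul_apply (pm e h), ← map_mul, mul_inv_cancel, map_one,
          Equiv.Perm.one_apply] at this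
        rw [← this, ← Equiv.Perm.mul_apply (pm e g⁻¹), ← map_mul, inv_mul_cancel, map_one,
          Equiv.Perm.one_apply]⟩ }
  have h5 : ∀ u ∈ ws, inK K u = true ∧ ev e ns u ∈ H := by
    refine (fun ws' (h6 : List.Forall₂ _ ws' vs) =>
      (?_ : ∀ u ∈ ws', inK K u = true ∧ ev e ns u ∈ H)) ws (forall₂_of_all2 h1)
    clear h1
    induction h6 with
    | nil => intro u hu; exact absurd hu List.not_mem_nil
    | @cons u v _ _ h7 _ ih =>
      simp only [and'_eq_true, allB_iff, beq_iff] at h7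
      refine List.forall_mem_cons.2 ⟨⟨h7.1.1, ev e ns v, fun i hi => ?_⟩, ih⟩
      have hi' := hi.trans_le b.le
      have := h7.2 i hi
      rw [hv _ _ hi', hv _ _ hi', ht, hv _ _ (st.lt hi'), hv _ _ ((supp_wp m.c.ok v).lt hi'),
        ht] at this
      rw [m.k.pm_ev e h7.1.1, m.k.pm_ev e h7.1.2, this]
  have h6 : ∀ g, ∃ h, R g h := fun g => (m.k.sub_le_iff e ((allL_iff _ _).2 fun u hu =>
    (h5 u hu).1) (H := H)).2 (fun u hu => (h5 u hu).2) (pm_mem e g)
  choose f hf using h6
  let φ : A →* A := MonoidHom.mk' f fun g g' => uq _ _ _ (hf _) (mul _ _ _ _ (hf g) (hf g'))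
  have inj : Function.Injective φ := by
    rw [← MonoidHom.ker_eq_bot_iff]
    refine (IsSimpleGroup.eq_bot_or_eq_top_of_normal _ inferInstance).resolve_right fun h => h4 ?_
    have h7 : f (ev e ns u) = 1 := MonoidHom.mem_ker.1 (h ▸ mem_top _ : ev e ns u ∈ φ.ker)
    have h8 := hf (ev e ns u) p h3
    have hp := h3.trans_le b.le
    rw [h7, map_one, m.k.pm_ev e h2] at h8
    rw [hv _ _ hp, ht, hv _ _ (st.lt hp), h8]; rfl
  exact ⟨MulEquiv.ofBijective φ (Finite.injective_iff_bijective.1 inj), hf⟩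

/-- The image of the word `u` is the word `v`. -/
noncomputable def twB (E : List ℕ → ℕ → ℕ) (bs : List ℕ) (K τ : ℕ) (u v : List ℕ) : Bool :=
  and' (inK K u) (and' (inK K v) (eqO E bs (appendR u [τ]) (τ :: v)))

theorem Tw.ev (m : Mo N w ns G K) {E : List ℕ → ℕ → ℕ} (hE : Evl N ns E) {e : A ≃* G} {n : ℕ}
    {bs : List ℕ} (b : Blk N G n bs) {τ : ℕ} {α : MulAut A} (h : Tw e n (wp ns [τ]) α)
    {u v : List ℕ} (h1 : twB E bs K τ u v = true) : α (ev e ns u) = ev e ns v := by
  simp only [twB, and'_eq_true] at h1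
  refine pm_inj e (b.bas.2 _ (pm_mem e _) _ (pm_mem e _) fun x hx => (wp ns [τ]).injective ?_)
  have := (of_eqO m.c hE b.bas.1).1 h1.2.2 x hx
  rw [appendR_eq, wp_append, show τ :: v = [τ] ++ v from rfl, wp_append] at this
  rw [← h _ x (b.lt x hx), m.k.pm_ev e h1.1, m.k.pm_ev e h1.2.1]
  exact this

/-- The number of moved points below `n`. -/
noncomputable def cntB (N w : ℕ) (ns : List Net) (n : ℕ) (u : List ℕ) : ℕ :=
  pcN N w (Nat.land (movM N w ns u) (ones n))

theorem cntB_eq (m : Mo N w ns G K) (e : A ≃* G) {n : ℕ} {bs : List ℕ} (b : Blk N G n bs)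
    {u v : List ℕ} (hu : inK K u = true) (hv : inK K v = true)
    (h : IsConj (ev e ns u) (ev e ns v)) : cntB N w ns n v = cntB N w ns n u := by
  obtain ⟨x, hx⟩ := isConj_iff.1 h
  rw [cntB, cntB, pcN_eq m.c.le, pcN_eq m.c.le]
  refine card_mset_eq (m.s (pm_mem e x)) fun i _ => ?_
  change Nat.testBit (_ &&& _) _ = Nat.testBit (_ &&& _) _
  rw [Nat.testBit_and, Nat.testBit_and, movM_conj m.c (u := u) (by
    rw [← m.k.pm_ev e hu, ← m.k.pm_ev e hv, ← hx, ← map_mul, ← map_mul, inv_mul_cancel_right]),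
    testBit_ones, testBit_ones, decide_eq_decide.2 (b.inv _ (pm_mem e x) i)]

theorem _root_.Cfsg.Agent.Comp.Reps.of_eqW {Γ X : Type*} [Group Γ] [MulAction Γ X] {n : ℕ}
    {pt : ℕ → X} {H : Subgroup Γ} (c : Ctx N w ns) {ws ws' : List (List ℕ)}
    (h : Reps n pt H ns ws) (he : all2 (eqW N w ns) ws' ws = true) : Reps n pt H ns ws' := by
  have h1 := forall₂_of_all2 he
  clear he
  induction h1 with
  | nil => exact Reps.nil
  | cons h2 _ ih =>
    exact Reps.cons (wp_eq_of_eqW c h2 ▸ h _ List.mem_cons_self)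
      (ih fun u hu => h u (List.mem_cons_of_mem _ hu))

end Cfsg.Agent.Comp.CT
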