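import Cfsg.Agent.Comp.Enum

/-!
A test for the enumeration engine: every nontrivial element is a product of two elements of prime order `r`.
-/

set_option autoImplicit false

namespace Cfsg.Agent.Comp

/-- Iteration of a point function. -/
noncomputable def itF (f : ℕ → ℕ) (r : ℕ) : ℕ → ℕ :=
  Nat.rec (motive := fun _ => ℕ → ℕ) (fun x => x) (fun _ ih x => force (f x) ih) r

theorem itF_eq {N : ℕ} {f : ℕ → ℕ} {g : Equiv.Perm ℕ} (hf : IsF N f g) (hg : Supp N g) (r : ℕ) {b : ℕ}
    (hb : b < N) : itF f r b = (g ^ r) b := by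
  induction r generalizing b with
  | zero => rfl
  | succ r ih =>
    rw [show itF f (r + 1) b = force (f b) (itF f r) from rfl, force_eq, hf b hb, ih (hg.lt hb), pow_succ]
    rfl

/-- The order is the prime `r`. -/
noncomputable def ordQ (f : ℕ → ℕ) (r : ℕ) (bs : List ℕ) : Bool :=
  and' (allL bs fun b => Nat.beq (itF f r b) b) (not' (allL bs fun b => Nat.beq (f b) b))

/-- `g` is trivial or `y g` has order `r` for an element `y` of order `r`. -/
def PCov (G : Subgroup (Equiv.Perm ℕ)) (r : ℕ) (g : Equiv.Perm ℕ) : Prop :=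
  g = 1 ∨ ∃ y ∈ G, orderOf y = r ∧ orderOf (y * g) = r

theorem PCov.conj {G : Subgroup (Equiv.Perm ℕ)} {r : ℕ} {h : Equiv.Perm ℕ} (hh : h ∈ G) (g : Equiv.Perm ℕ)
    (hg : PCov G r g) : PCov G r (h * g * h⁻¹) := by
  rcases hg with rfl | ⟨y, h1, h2, h3⟩
  · exact .inl (by simp)
  · refine .inr ⟨h * y * h⁻¹, mul_mem (mul_mem hh h1) (inv_mem hh), ((MulAut.conj h).orderOf_eq y).trans h2, ?_⟩
    rw [← h3, ← (MulAut.conj h).orderOf_eq (y * g), map_mul]
    rfl

/-- The test: the candidates are the conjugates of the word `x` by the words `cs`. -/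
noncomputable def covP (W M : ℕ) (v : Net) (E : List ℕ → ℕ → ℕ) (K r : ℕ) (bs x : List ℕ) (cs : List (List ℕ))
    (T : ℕ) : Bool :=
  force (v.app 1 T) fun D => or' (anyL cs fun u => and'
    (ordQ (fun i => E (appendR u (appendR x (invW u))) (dig W M D i)) r bs) (inK K u))
    (allL bs fun b => Nat.beq (dig W M D b) b)

theorem tabTest_covP {N w W M : ℕ} {v : Net} {ns : List Net} (c : LCtx N w W M v ns) {E : List ℕ → ℕ → ℕ}
    (hE : Evl N ns E) {S : List SD} (hS : Exact N ns S) {bs : List ℕ} (hb : sBase S = bs) {K : ℕ}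
    (hK : Known ns (gen ns (sTop S)) K) {r : ℕ} [Fact r.Prime] {x : List ℕ} (hx : inK K x = true)
    (hr : orderOf (wp ns x) = r) (cs : List (List ℕ)) :
    TabTest N w (gen ns (sTop S)) (covP W M v E K r bs x cs) (PCov (gen ns (sTop S)) r) := by
  subst hb
  intro T g hg hT h
  have key : ∀ y ∈ gen ns (sTop S), (∀ b ∈ sBase S, y b = b) → y = 1 := fun y hy h =>
    hS.eq_one hy fun d hd => h _ (by simpa [sBase] using ⟨d, hd, rfl⟩)
  have hf := hT.isF c
  simp only [covP, force_eq, or'_eq_true, anyL_iff, and'_eq_true, allL_iff, beq_iff, ordQ] at h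
  rcases h with ⟨u, -, ⟨h1, h2⟩, h3⟩ | h
  · have hf' := (hE (appendR u (appendR x (invW u)))).comp hf hT.1
    have hs := (supp_wp c.ok (appendR u (appendR x (invW u)))).mul hT.1
    have hm : wp ns (appendR u (appendR x (invW u))) ∈ gen ns (sTop S) := by
      simpa [wp_invW] using mul_mem (hK.word h3) (mul_mem (hK.word hx) (inv_mem (hK.word h3)))
    refine .inr ⟨_, hm, ?_, orderOf_eq_prime (key _ (pow_mem (mul_mem hm hg) r) fun b hb => ?_) fun e => ?_⟩
    · rw [← hr, ← (MulAut.conj (wp ns u)).orderOf_eq (wp ns x)]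
      simp [wp_invW, mul_assoc]
    · rw [← itF_eq hf' hs r (hS.base_lt b hb), h1 b hb]
    · rw [(allL_iff _ _).2 fun b hb => (beq_iff _ _).2 ((hf' b (hS.base_lt b hb)).trans (by rw [e]; rfl))] at h2
      exact absurd h2 (by decide)
  · exact .inl (key g hg fun b hb => (hf b (hS.base_lt b hb)).symm.trans (h b hb))

end Cfsg.Agent.Comp
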