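import Mathlib
import Cfsg.Agent.Comp.MatModel

/-! Permutation models whose points are labelled by an object and by a set of other points. -/

set_option autoImplicit false
set_option linter.unusedSectionVars false

namespace Cfsg.Agent.Comp

open scoped Pointwise

/-- Pairs of an object and a set of objects. -/
def Inc (Y : Type*) : Type _ := Y × Set Y

section
variable {Γ Y : Type*} [Group Γ] [MulAction Γ Y]

instance instMulActionInc : MulAction Γ (Inc Y) := inferInstanceAs (MulAction Γ (Y × Set Y))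

/-- The label of a point: its object and the objects of the points of its mask. -/
def incPt (n : ℕ) (ln : ℕ → Y) (M : ℕ → ℕ) (i : ℕ) : Inc Y :=
  (ln i, ln '' (bitSet M i ∩ Set.Iio n))

theorem inc_smul (g : Γ) (a : Y) (s : Set Y) :
    g • (show Inc Y from (a, s)) = (show Inc Y from (g • a, (g • ·) '' s)) := rfl

theorem smul_inc_eq {g : Γ} (h : ∀ y : Y, g • y = y) (x : Inc Y) : g • x = x := by
  obtain ⟨a, s⟩ := x
  refine (inc_smul g a s).trans ?_
  simp only [h, Set.image_id']
  rfl

variable {n : ℕ} {ln : ℕ → Y} {M : ℕ → ℕ}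

theorem repBy_inc {g : Γ} {σ : Equiv.Perm ℕ} (h1 : RepBy n ln g σ)
    (h2 : RepBy n (bitSet M) σ σ) : RepBy n (incPt n ln M) g σ := by
  refine ⟨h1.1, fun i hi => (inc_smul g _ _).trans ?_⟩
  refine Prod.ext (h1.2 i hi) ?_
  change (g • ·) '' (ln '' _) = ln '' _
  rw [← h2.2 i hi]
  ext y
  constructor
  · rintro ⟨_, ⟨b, ⟨hb, hn⟩, rfl⟩, rfl⟩
    exact ⟨σ b, ⟨Set.smul_mem_smul_set (a := σ) hb, h1.1.lt hn⟩, (h1.2 b hn).symm⟩
  · rintro ⟨_, ⟨⟨b, hb, rfl⟩, hn⟩, rfl⟩
    have hb' : b < n := by simpa using h1.1.inv.lt hn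
    exact ⟨_, ⟨b, ⟨hb, hb'⟩, rfl⟩, h1.2 b hb'⟩

/-- An invariant of the label, given the mask `F` of a set of objects. -/
noncomputable def incKey (n F : ℕ) (M : ℕ → ℕ) (i : ℕ) : ℕ :=
  force (Nat.land (M i) (ones n)) fun x => force (Nat.land x F) fun y =>
    ite' (tb F i) (ite' (Nat.beq y 0) (ite' (Nat.beq y x) 0 1) (ite' (Nat.beq y x) 2 3))
      (ite' (Nat.beq y 0) (ite' (Nat.beq y x) 4 5) (ite' (Nat.beq y x) 6 7))

theorem sep_inc {F a : ℕ} (hF : ∀ b < n, ∀ c < n, ln b = ln c → F.testBit b = F.testBit c)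
    (h : chkSepLab n (incKey n F M) a = true) : Sep n (incPt n ln M) a := by
  obtain ⟨ha, hs⟩ := sep_of_chkSepLab h
  refine ⟨ha, fun i hi e => hs i hi ?_⟩
  have e1 : ln i = ln a := congrArg Prod.fst e
  have e2 : ln '' (bitSet M i ∩ Set.Iio n) = ln '' (bitSet M a ∩ Set.Iio n) := congrArg Prod.snd e
  have k : ∀ {i a : ℕ}, ln '' (bitSet M i ∩ Set.Iio n) = ln '' (bitSet M a ∩ Set.Iio n) →
      ∀ v : Bool, (∀ b < n, (M a).testBit b = true → F.testBit b = v) →
        ∀ b < n, (M i).testBit b = true → F.testBit b = v := by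
    intro i a e v h b hb hm
    obtain ⟨c, ⟨hc, hn⟩, e'⟩ : ln b ∈ ln '' (bitSet M a ∩ Set.Iio n) := e ▸ ⟨b, ⟨hm, hb⟩, rfl⟩
    rw [← hF c hn b hb e']
    exact h c hn hc
  have k0 : ∀ i, Nat.beq (Nat.land (Nat.land (M i) (ones n)) F) 0 = true ↔
      ∀ b < n, (M i).testBit b = true → F.testBit b = false := by
    intro i
    rw [beq_iff]
    change M i &&& ones n &&& F = 0 ↔ _
    constructor
    · intro h b hb hm
      have := congrArg (·.testBit b) h
      simpa [Nat.testBit_and, testBit_ones, hb, hm] using this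
    · intro h
      refine Nat.eq_of_testBit_eq fun b => ?_
      rw [Nat.testBit_and, Nat.testBit_and, testBit_ones, Nat.zero_testBit]
      by_cases hb : b < n
      · cases hm : (M i).testBit b
        · simp
        · simp [h b hb hm]
      · simp [hb]
  have k1 : ∀ i, Nat.beq (Nat.land (Nat.land (M i) (ones n)) F) (Nat.land (M i) (ones n)) = true ↔
      ∀ b < n, (M i).testBit b = true → F.testBit b = true := by
    intro i
    rw [beq_iff]
    change M i &&& ones n &&& F = M i &&& ones n ↔ _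
    constructor
    · intro h b hb hm
      have := congrArg (·.testBit b) h
      simpa [Nat.testBit_and, testBit_ones, hb, hm] using this
    · intro h
      refine Nat.eq_of_testBit_eq fun b => ?_
      simp only [Nat.testBit_and, testBit_ones]
      by_cases hb : b < n
      · cases hm : (M i).testBit b
        · simp
        · simp [h b hb hm]
      · simp [hb]
  have a0 := Bool.eq_iff_iff.2 ((k0 i).trans ((Iff.intro (k e2.symm false) (k e2 false)).trans
    (k0 a).symm))
  have a1 := Bool.eq_iff_iff.2 ((k1 i).trans ((Iff.intro (k e2.symm true) (k e2 true)).trans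
    (k1 a).symm))
  simp only [incKey, force_eq, tb_eq, hF i hi a ha e1, a0, a1]

end

namespace Kron

open Finset Cfsg.Agent.Comp.Dig
open scoped MatrixGroups Matrix

/-- `F` is the mask of the states whose vectors are fixed by the matrix `P`. -/
noncomputable def chkFixF (k : ℕ) (op : ℕ → ℕ → ℕ) (DW f n d m p P : ℕ) (S : ℕ → ℕ) (F : ℕ) :
    Bool :=
  and' (validB f n d p P) (Comp.force (hatE op DW f n d m P) fun D =>
    allB k fun i => Comp.force (S i) fun s =>
      ite' (tb F i) (Nat.beq (op D s) s) (not' (Nat.beq (op D s) s)))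

variable {ι R : Type*} [Fintype ι] [DecidableEq ι] [Field R]
  {ix : ℕ → ι} {w : R} {f n m d p : ℕ} {op : ℕ → ℕ → ℕ} {DW : ℕ}

theorem Ctx.fixF (X : Ctx ix w f n m d p op DW) {k : ℕ} {S : ℕ → ℕ}
    (hS : validT f n d p k S = true) {P F : ℕ} (h : chkFixF k op DW f n d m p P S F = true) :
    ∀ b < k, ∀ c < k, subPt ix w f n d S b = subPt ix w f n d S c →
      F.testBit b = F.testBit c := by
  simp only [chkFixF, and'_eq_true, Comp.force_eq, allB_iff, tb_eq] at h
  obtain ⟨h2, h4⟩ := h
  obtain ⟨M, hM⟩ := X.exists_mat P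
  have hP := valid_of_validB X.p_pos h2
  have h0 : ∀ i < k, F.testBit i = true ↔ op (hatE op DW f n d m P) (S i) = S i := by
    intro i hi
    have := h4 i hi
    cases hb : F.testBit i
    · rw [hb, ite'_false, not'_eq_true, beq_iff] at this
      simp [this]
    · rw [hb, ite'_true, beq_iff] at this
      simp [this]
  have key : ∀ i < k, ∀ a < k, subPt ix w f n d S i = subPt ix w f n d S a →
      F.testBit a = true → F.testBit i = true := by
    intro i hi a h1 e h3
    rw [h0 a h1] at h3
    rw [h0 i hi]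
    have h5 : ∀ v ∈ (subPt ix w f n d S a).sm, M *ᵥ v = v := by
      intro v hv
      induction hv using Submodule.span_induction with
      | mem x hx =>
        obtain ⟨b, hb, rfl⟩ := hx
        rw [← (X.op_spec M hP hM (X.valid_of_validT hS a h1)).2 b hb, h3]
      | zero => exact Matrix.mulVec_zero _
      | add x y _ _ hx hy => rw [Matrix.mulVec_add, hx, hy]
      | smul c x _ hx => rw [Matrix.mulVec_smul, hx]
    obtain ⟨h6, h7⟩ := X.op_spec M hP hM (X.valid_of_validT hS i hi)
    refine eq_of_row_eq X.f_pos X.indep' h6 (X.valid_of_validT hS i hi) fun b hb => ?_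
    rw [h7 b hb]
    exact h5 _ (e ▸ Submodule.subset_span ⟨b, hb, rfl⟩)
  exact fun b hb c hc e => Bool.eq_iff_iff.2 ⟨key c hc b hb e.symm, key b hb c hc e⟩

end Kron

end Cfsg.Agent.Comp
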