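import Cfsg.Agent.Comp.Known

/-!
Groups acting on a conjugacy class `p ↦ τ p`: upper bounds for set stabilisers by refinement, maximal subgroups
recognised by the members of the class they contain, elements of the derived series.
-/

set_option autoImplicit false

namespace Cfsg.Agent.Comp

open scoped commutatorElement

/-- The point stabiliser of `b0` centralises `t0`. -/
def CentAt (ns : List Net) (G : Subgroup (Equiv.Perm ℕ)) (b0 : ℕ) (t0 : List ℕ) : Prop :=
  ∀ g ∈ G, g b0 = b0 → g * wp ns t0 = wp ns t0 * g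

/-- `t` is the member of the class attached to the point `b`. -/
def TauAt (ns : List Net) (G : Subgroup (Equiv.Perm ℕ)) (b0 : ℕ) (t0 : List ℕ) (b : ℕ) (t : List ℕ) : Prop :=
  ∃ g ∈ G, g b0 = b ∧ wp ns t = g * wp ns t0 * g⁻¹

theorem tauAt_of {N w : ℕ} {ns : List Net} (c : Ctx N w ns) {G : Subgroup (Equiv.Perm ℕ)} {K : ℕ}
    (hK : Known ns G K) {b0 b : ℕ} {t0 t u : List ℕ}
    (h : and' (Nat.blt b0 N) (and' (inK K u) (and' (mapsW ns u b0 b)
      (eqW N w ns (appendR t u) (appendR u t0)))) = true) : TauAt ns G b0 t0 b t := by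
  simp only [and'_eq_true, blt_iff, appendR_eq] at h
  refine ⟨_, hK.word h.2.1, wp_apply_of_mapsW c.ok h.1 h.2.2.1, ?_⟩
  have := wp_eq_of_eqW c h.2.2.2
  rw [wp_append, wp_append] at this
  rw [← this, mul_inv_cancel_right]

/-- The word `u t u⁻¹`. -/
noncomputable def cjW (u t : List ℕ) : List ℕ := appendR u (appendR t (invW u))

theorem tauAt_cjW {N w : ℕ} {ns : List Net} (c : Ctx N w ns) {G : Subgroup (Equiv.Perm ℕ)} {K : ℕ}
    (hK : Known ns G K) {b0 b : ℕ} {t0 u : List ℕ}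
    (h : and' (Nat.blt b0 N) (and' (inK K u) (mapsW ns u b0 b)) = true) : TauAt ns G b0 t0 b (cjW u t0) := by
  simp only [and'_eq_true, blt_iff] at h
  refine ⟨_, hK.word h.2.1, wp_apply_of_mapsW c.ok h.1 h.2.2, ?_⟩
  rw [cjW, appendR_eq, appendR_eq, wp_append, wp_append, wp_invW, mul_assoc]

variable {N w : ℕ} {ns : List Net} {G : Subgroup (Equiv.Perm ℕ)} {b0 : ℕ} {t0 : List ℕ}

theorem CentAt.conj_eq (h : CentAt ns G b0 t0) {g g' : Equiv.Perm ℕ} (hg : g ∈ G) (hg' : g' ∈ G)
    (e : g b0 = g' b0) : g * wp ns t0 * g⁻¹ = g' * wp ns t0 * g'⁻¹ := by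
  have := h (g'⁻¹ * g) (mul_mem (inv_mem hg') hg) (by rw [Equiv.Perm.mul_apply, e]; simp)
  calc _ = g' * (g'⁻¹ * g * wp ns t0) * g⁻¹ := by group
    _ = _ := by rw [this]; group

theorem TauAt.comm (hT : CentAt ns G b0 t0) {b : ℕ} {t : List ℕ} (h : TauAt ns G b0 t0 b t)
    {g : Equiv.Perm ℕ} (hg : g ∈ G) (hb : g b = b) : g * wp ns t = wp ns t * g := by
  obtain ⟨x, hx, e1, e2⟩ := h
  have := hT.conj_eq (mul_mem hg hx) hx (by rw [Equiv.Perm.mul_apply, e1, hb])
  rw [e2]
  conv_rhs => rw [← this]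
  group

/-- Every subgroup of `G` preserving the masks `Ms`, centralising the words `cw` and fixing the points of the
mask `B` has at most `m` elements. -/
def UB (ns : List Net) (G : Subgroup (Equiv.Perm ℕ)) (Ms : List ℕ) (cw : List (List ℕ)) (B m : ℕ) : Prop :=
  ∀ K ≤ G, (∀ M ∈ Ms, K ≤ maskStab M) → (∀ g ∈ K, ∀ u ∈ cw, g * wp ns u = wp ns u * g) →
    (∀ g ∈ K, ∀ b, B.testBit b = true → g b = b) → Nat.card K ≤ m

theorem comm_gen {cw : List (List ℕ)} {g : Equiv.Perm ℕ} (h : ∀ u ∈ cw, g * wp ns u = wp ns u * g)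
    {x : Equiv.Perm ℕ} (hx : x ∈ gen ns cw) : g * x = x * g :=
  ((gen_le_iff (H := Subgroup.centralizer {g})).2
    (fun u hu => Subgroup.mem_centralizer_singleton_iff.2 (h u hu).symm) hx) g rfl

theorem ub_base (c : Ctx N w ns) {n : ℕ} (hs : G ≤ suppSub n) {Ms : List ℕ} {cw : List (List ℕ)} {B r : ℕ}
    (h : and' (Nat.ble n N) (Nat.beq (Nat.land (grow ns cw r B) (ones n)) (ones n)) = true) :
    UB ns G Ms cw B 1 := by
  simp only [and'_eq_true, ble_iff, beq_iff] at h
  intro K hK _ h2 h3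
  have : K = ⊥ := by
    rw [eq_bot_iff]
    intro g hg
    rw [Subgroup.mem_bot]
    ext i
    by_cases hi : i < n
    · have h4 := congrArg (fun z => z.testBit i) h.2
      change (grow ns cw r B &&& ones n).testBit i = _ at h4
      simp only [Nat.testBit_and, testBit_ones, hi, decide_true, Bool.and_true] at h4
      obtain ⟨j, -, hj, x, hx, rfl⟩ := reach_grow c.ok (fun u hu => wp_mem_gen ns hu) r B i (by omega) h4
      rw [← Equiv.Perm.mul_apply, comm_gen (h2 g hg) hx, Equiv.Perm.mul_apply, h3 g hg j hj]; rfl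
    · exact hs (hK hg) i (not_lt.1 hi)
  rw [this]; simp

/-- An invariant mask: the image of a given mask, or the set of points moved by a word. -/
noncomputable def tmask (N w : ℕ) (ns : List Net) (Ms : List ℕ) (cw : List (List ℕ)) (e : ℕ × List ℕ) : ℕ :=
  ite' (Nat.blt e.1 Ms.length) (appW 1 ns (subW cw e.2) (getL 0 Ms e.1)) (movM N w ns (subW cw e.2))

/-- The points that agree with `b` on all the tests. -/
noncomputable def cell (N w : ℕ) (ns : List Net) (Ms : List ℕ) (cw : List (List ℕ)) (b : ℕ)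
    (ts : List (ℕ × List ℕ)) : ℕ → ℕ :=
  List.rec (motive := fun _ => ℕ → ℕ) (fun X => X) (fun e _ ih X =>
    force (tmask N w ns Ms cw e) fun Y =>
      force (ite' (tb Y b) (Nat.land X Y) (Nat.xor X (Nat.land X Y))) ih) ts

theorem mem_cell (c : Ctx N w ns) {Ms : List ℕ} {cw : List (List ℕ)} {b : ℕ} (hb : b < N)
    {g : Equiv.Perm ℕ} (hg : g b < N) (h1 : ∀ M ∈ Ms, g ∈ maskStab M)
    (h2 : ∀ u ∈ cw, g * wp ns u = wp ns u * g) (ts : List (ℕ × List ℕ)) {X : ℕ}
    (hX : X.testBit (g b) = true) : (cell N w ns Ms cw b ts X).testBit (g b) = true := by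
  induction ts generalizing X with
  | nil => exact hX
  | cons e ts ih =>
    have e1 : cell N w ns Ms cw b (e :: ts) X = force (tmask N w ns Ms cw e) fun Y =>
      force (ite' (tb Y b) (Nat.land X Y) (Nat.xor X (Nat.land X Y))) (cell N w ns Ms cw b ts) := rfl
    rw [e1, force_eq, force_eq]
    apply ih
    have h3 : (tmask N w ns Ms cw e).testBit (g b) = (tmask N w ns Ms cw e).testBit b := by
      have h4 := comm_gen h2 (subW_mem ns cw e.2)
      rw [tmask, ite'_eq]
      split_ifs with h5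
      · rw [testBit_appW_one c.ok _ _ hg, testBit_appW_one c.ok _ _ hb, ← Equiv.Perm.mul_apply, ← h4,
          Equiv.Perm.mul_apply]
        exact h1 _ (getL_mem 0 ((blt_iff _ _).1 h5)) _
      · exact movM_conj c h4 b
    generalize tmask N w ns Ms cw e = Y at h3
    rw [ite'_eq, tb_eq]
    split_ifs with h5
    · change (X &&& Y).testBit _ = true
      rw [Nat.testBit_and, hX, h3, h5]; rfl
    · change (X ^^^ (X &&& Y)).testBit _ = true
      rw [Nat.testBit_xor, Nat.testBit_and, hX, h3]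
      simpa using h5

theorem UB.step (c : Ctx N w ns) {n : ℕ} (hs : G ≤ suppSub n) (hT : CentAt ns G b0 t0) {Ms : List ℕ}
    {cw : List (List ℕ)} {B m b : ℕ} {t : List ℕ} (h : UB ns G Ms (t :: cw) (Nat.lor B (Nat.shiftLeft 1 b)) m)
    (ht : TauAt ns G b0 t0 b t) {ts : List (ℕ × List ℕ)} {k : ℕ}
    (hc : and' (Nat.ble n N) (and' (Nat.blt b n) (Nat.ble (pcN N w (cell N w ns Ms cw b ts (ones n))) k)) = true) :
    UB ns G Ms cw B (k * m) := by
  simp only [and'_eq_true, ble_iff, blt_iff] at hc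
  intro K hK h1 h2 h3
  rw [card_eq_orbit_mul_stab K b]
  refine Nat.mul_le_mul (le_trans ?_ hc.2.2) (h _ (inf_le_left.trans hK) (fun M hM => inf_le_left.trans (h1 M hM))
    (fun g hg u hu => ?_) fun g hg i hi => ?_)
  · rw [pcN_eq c.le, ← Set.ncard_coe_finset]
    refine Set.ncard_le_ncard ?_ (Finset.finite_toSet _)
    rintro _ ⟨g, hg, rfl⟩
    have h4 : g b < n := Supp.lt (hs (hK hg)) hc.2.1
    exact mem_mset.2 ⟨by change g b < N; omega, mem_cell c (by omega) (by omega) (fun M hM => h1 M hM hg) (h2 g hg) ts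
      (by rw [testBit_ones]; exact decide_eq_true h4)⟩
  · rcases List.mem_cons.1 hu with rfl | hu
    · exact ht.comm hT (hK hg.1) hg.2
    · exact h2 g hg.1 u hu
  · change (B ||| 1 <<< b).testBit i = true at hi
    rw [Nat.testBit_or, Bool.or_eq_true, Nat.one_shiftLeft, Nat.testBit_two_pow, decide_eq_true_eq] at hi
    rcases hi with hi | rfl
    · exact h3 g hg.1 i hi
    · exact hg.2

/-! ### Maximal subgroups -/

noncomputable def subM (X Y : ℕ) : Bool := Nat.beq (Nat.land X Y) X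

theorem of_subM {X Y : ℕ} (h : subM X Y = true) {i : ℕ} (hi : X.testBit i = true) : Y.testBit i = true := by
  have := congrArg (fun z => z.testBit i) ((beq_iff _ _).1 h)
  change (X &&& Y).testBit i = _ at this
  simpa [Nat.testBit_and, hi] using this

/-- The points whose member of the class lies in `K`. -/
def Tr (ns : List Net) (G : Subgroup (Equiv.Perm ℕ)) (b0 : ℕ) (t0 : List ℕ) (K : Subgroup (Equiv.Perm ℕ))
    (p : ℕ) : Prop := ∃ g ∈ G, g b0 = p ∧ g * wp ns t0 * g⁻¹ ∈ K

theorem Tr.smul {K : Subgroup (Equiv.Perm ℕ)} (hK : K ≤ G) {p : ℕ} (h : Tr ns G b0 t0 K p) {k : Equiv.Perm ℕ}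
    (hk : k ∈ K) : Tr ns G b0 t0 K (k p) := by
  obtain ⟨g, hg, rfl, h⟩ := h
  refine ⟨k * g, mul_mem (hK hk) hg, rfl, ?_⟩
  have := mul_mem (mul_mem hk h) (inv_mem hk)
  convert this using 1
  group

theorem Tr.mem (hT : CentAt ns G b0 t0) {K : Subgroup (Equiv.Perm ℕ)} {p : ℕ} (h : Tr ns G b0 t0 K p)
    {t : List ℕ} (ht : TauAt ns G b0 t0 p t) : wp ns t ∈ K := by
  obtain ⟨g, hg, e, h⟩ := h
  obtain ⟨g', hg', e', h'⟩ := ht
  rwa [h', hT.conj_eq hg' hg (e'.trans e.symm)]

theorem TauAt.tr {K : Subgroup (Equiv.Perm ℕ)} {p : ℕ} {t : List ℕ} (ht : TauAt ns G b0 t0 p t)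
    (h : wp ns t ∈ K) : Tr ns G b0 t0 K p := by
  obtain ⟨g, hg, e, h'⟩ := ht
  exact ⟨g, hg, e, h' ▸ h⟩

/-- A proper subgroup containing `gen hs` contains no member of the class in the orbit `X` of `p`. -/
theorem not_tr (c : Ctx N w ns) {n : ℕ} (hn : n ≤ N) (hT : CentAt ns G b0 t0) {ss hs : List (List ℕ)}
    (hG : G = gen ns ss) (hss : ∀ s ∈ ss, ∃ b < n, TauAt ns G b0 t0 b s) {K : Subgroup (Equiv.Perm ℕ)}
    (hK : K < G) (h0 : gen ns hs ≤ K) {d : ℕ} (hd : Tr ns G b0 t0 K d) {p : ℕ} {t : List ℕ}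
    (ht : TauAt ns G b0 t0 p t) {X r r' : ℕ} (h1 : subM X (orb ns hs r p) = true)
    (h2 : subM (ones n) (orb ns (t :: hs) r' d) = true) {i : ℕ} (hi : i < N) (hX : X.testBit i = true) :
    ¬ Tr ns G b0 t0 K i := by
  intro h
  have h3 := gen_le_iff.1 h0
  obtain ⟨k, hk, rfl⟩ := exists_of_orb c.ok h3 hi (of_subM h1 hX)
  have h4 := h.smul hK.le (inv_mem hk)
  rw [← Equiv.Perm.mul_apply, inv_mul_cancel, Equiv.Perm.one_apply] at h4
  have h5 : ∀ u ∈ t :: hs, wp ns u ∈ K := List.forall_mem_cons.2 ⟨h4.mem hT ht, h3⟩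
  refine hK.not_ge (hG ▸ gen_le_iff.2 fun s hs' => ?_)
  obtain ⟨b, hb, h6⟩ := hss s hs'
  obtain ⟨k, hk, rfl⟩ := exists_of_orb c.ok h5 (by omega : b < N)
    (of_subM h2 (by rw [testBit_ones]; exact decide_eq_true hb))
  exact (hd.smul hK.le hk).mem hT (hG ▸ h6)

/-- Three orbits `D`, `O`, `Q` of `gen hs`, the first one consisting of members of the class inside `gen hs`. -/
theorem exists_coatom3 (c : Ctx N w ns) {n : ℕ} (hs' : G ≤ suppSub n) (hT : CentAt ns G b0 t0)
    {ss hs : List (List ℕ)} (hG : G = gen ns ss) (hss : ∀ s ∈ ss, ∃ b < n, TauAt ns G b0 t0 b s)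
    (h0 : gen ns hs ≤ G) {D O Q d p q : ℕ} {td tp tq : List ℕ} (hd : TauAt ns G b0 t0 d td) (hd' : td ∈ hs)
    (hp : TauAt ns G b0 t0 p tp) (hq : TauAt ns G b0 t0 q tq) {r1 r2 r3 r4 r5 a : ℕ} (ha : Nat.card G = a)
    (h1 : and' (Nat.ble n N) (and' (Nat.beq (Nat.lor D (Nat.lor O Q)) (ones n)) (and' (Nat.beq (Nat.land D O) 0)
      (and' (Nat.beq (Nat.land D Q) 0) (and' (Nat.beq (Nat.land O Q) 0) (and' (tb D d) (and' (tb O p) (and' (tb Q q)
      (not' (Nat.beq (Nat.mod a (pcN N w (Nat.lor O Q))) 0))))))))) = true)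
    (h2 : invAll ns hs D = true) (h3 : subM D (orb ns hs r1 d) = true) (h4 : subM O (orb ns hs r2 p) = true)
    (h5 : subM Q (orb ns hs r3 q) = true) (h6 : subM (ones n) (orb ns (tp :: hs) r4 d) = true)
    (h7 : subM (ones n) (orb ns (tq :: hs) r5 d) = true) :
    ∃ H : Subgroup G, IsCoatom H ∧ gen ns hs ≤ H.map G.subtype ∧ ∀ M ∈ [D, O], H.map G.subtype ≤ maskStab M := by
  simp only [and'_eq_true, ble_iff, beq_iff, tb_eq, not'_eq_true] at h1
  obtain ⟨hn, e1, e2, e3, e4, m1, m2, m3, hdv⟩ := h1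
  have fin : Finite G := finite_of_le_supp hs'
  have cov : ∀ i, (D.testBit i || (O.testBit i || Q.testBit i)) = decide (i < n) := fun i => by
    rw [← Nat.testBit_or, ← Nat.testBit_or, ← testBit_ones, ← e1]; rfl
  have dj : ∀ {X Y : ℕ}, Nat.land X Y = 0 → ∀ i, (X.testBit i && Y.testBit i) = false := fun h i => by
    rw [← Nat.testBit_and, ← Nat.zero_testBit i, ← h]; rfl
  have lt : ∀ {i}, D.testBit i = true ∨ O.testBit i = true ∨ Q.testBit i = true → i < n := fun {i} h => by
    have := cov i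
    rcases h with h | h | h <;> simpa [h] using this
  have tpG : wp ns tp ∈ G := by
    obtain ⟨g, hg, -, e⟩ := hp
    obtain ⟨g', hg', -, e'⟩ := hd
    have : wp ns t0 ∈ G := by
      have := mul_mem (mul_mem (inv_mem hg') (h0 (wp_mem_gen ns hd'))) hg'
      rwa [e', show g'⁻¹ * (g' * wp ns t0 * g'⁻¹) * g' = wp ns t0 by group] at this
    rw [e]; exact mul_mem (mul_mem hg this) (inv_mem hg)
  have hne : (gen ns hs).subgroupOf G ≠ ⊤ := fun e => by
    obtain ⟨g, hg, e5⟩ := exists_of_orb c.ok (G := G) (List.forall_mem_cons.2 ⟨tpG, gen_le_iff.1 h0⟩)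
      (show p < N by have := lt (Or.inr (Or.inl m2)); omega)
      (of_subM h6 (by rw [testBit_ones]; exact decide_eq_true (lt (Or.inr (Or.inl m2)))))
    have := inv_of_invAll c.ok h2 (Subgroup.subgroupOf_eq_top.1 e hg) d
    have h8 := dj e2 p
    rw [← e5, this, m1, e5, m2] at h8
    exact absurd h8 (by decide)
  obtain ⟨H, hH, hle⟩ := (eq_top_or_exists_le_coatom _).resolve_left hne
  set K := H.map G.subtype with hKdef
  have hK0 : gen ns hs ≤ K := fun g hg => ⟨⟨g, h0 hg⟩, hle hg, rfl⟩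
  have hK : K < G := lt_of_le_of_ne (Subgroup.map_subtype_le _) fun e => hH.1 (by
    rw [eq_top_iff]
    intro g _
    have hg : (g : Equiv.Perm ℕ) ∈ K := e.ge g.2
    obtain ⟨x, hx, e'⟩ := hg
    rwa [← show x = g from Subtype.ext e'])
  have hw := gen_le_iff.1 hK0
  have trd := hd.tr (hw _ hd')
  have trD : ∀ i < n, Tr ns G b0 t0 K i ↔ D.testBit i = true := fun i hi => ⟨fun h => by
      have a1 := fun x => not_tr c hn hT hG hss hK hK0 trd hp h4 h6 (i := i) (by omega) x h
      have a2 := fun x => not_tr c hn hT hG hss hK hK0 trd hq h5 h7 (i := i) (by omega) x h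
      have := cov i
      revert this a1 a2
      cases D.testBit i <;> cases O.testBit i <;> cases Q.testBit i <;> simp [hi], fun h => by
      obtain ⟨k, hk, rfl⟩ := exists_of_orb c.ok hw (by omega : i < N) (of_subM h3 h)
      exact trd.smul hK.le hk⟩
  have sD : K ≤ maskStab D := fun g hg i => by
    have hg' := hs' (hK.le hg)
    by_cases hi : i < n
    · rw [Bool.eq_iff_iff, ← trD i hi, ← trD _ (Supp.lt hg' hi)]
      exact ⟨fun h => by simpa using h.smul hK.le (inv_mem hg), fun h => h.smul hK.le hg⟩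
    · rw [hg' i (not_lt.1 hi)]
  have key : ∀ g ∈ K, ∀ i, O.testBit i = true → O.testBit (g i) = true := fun g hg i hi => by
    by_contra hO
    have hi' := lt (Or.inr (Or.inl hi))
    have hgi := Supp.lt (hs' (hK.le hg)) hi'
    have hQ : Q.testBit (g i) = true := by
      have a1 := cov (g i)
      have a2 := dj e2 i
      rw [sD hg i] at a1
      revert a1 a2 hO
      rw [hi]
      cases D.testBit i <;> cases O.testBit (g i) <;> cases Q.testBit (g i) <;> simp [hgi]
    obtain ⟨k1, hk1, rfl⟩ := exists_of_orb c.ok hw (by omega : i < N) (of_subM h4 hi)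
    obtain ⟨k2, hk2, e5⟩ := exists_of_orb c.ok hw (by omega : g (k1 p) < N) (of_subM h5 hQ)
    have horb : {j | ∃ x ∈ K, x • p = j} = (mset N (Nat.lor O Q) : Set ℕ) := by
      ext j
      rw [Finset.mem_coe, mem_mset, show Nat.lor O Q = O ||| Q from rfl, Nat.testBit_or]
      constructor
      · rintro ⟨x, hx, rfl⟩
        have a0 : x p < n := Supp.lt (hs' (hK.le hx)) (lt (Or.inr (Or.inl m2)))
        have a1 := cov (x p)
        have a2 := dj e2 p
        rw [sD hx p] at a1
        rw [m2, Bool.and_true] at a2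
        rw [a2, Bool.false_or, decide_eq_true a0] at a1
        exact ⟨by change x p < N; omega, a1⟩
      · rintro ⟨hj, hj'⟩
        rcases Bool.or_eq_true_iff.1 hj' with hj' | hj'
        · exact exists_of_orb c.ok hw hj (of_subM h4 hj')
        · obtain ⟨k3, hk3, rfl⟩ := exists_of_orb c.ok hw hj (of_subM h5 hj')
          refine ⟨k3 * k2⁻¹ * g * k1, mul_mem (mul_mem (mul_mem hk3 (inv_mem hk2)) hg) hk1, ?_⟩
          change k3 (k2⁻¹ (g (k1 p))) = _
          rw [← e5]; simp
    have a3 := card_eq_orbit_mul_stab K p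
    rw [horb, Set.ncard_coe_finset, ← pcN_eq c.le] at a3
    have a4 := (Dvd.intro _ a3.symm).trans (Subgroup.card_dvd_of_le hK.le)
    rw [ha] at a4
    rw [show Nat.mod a _ = 0 from Nat.mod_eq_zero_of_dvd a4] at hdv
    exact absurd hdv (by decide)
  refine ⟨H, hH, hK0, List.forall_mem_cons.2 ⟨sD, List.forall_mem_cons.2 ⟨fun g hg i => ?_, by simp⟩⟩⟩
  rw [Bool.eq_iff_iff]
  exact ⟨fun h => by simpa using key _ (inv_mem hg) _ h, key g hg i⟩

/-! ### The derived series -/

/-- The derived series of a subgroup, in the ambient group. -/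
def dser {Γ : Type*} [Group Γ] (S : Subgroup Γ) : ℕ → Subgroup Γ
  | 0 => S
  | n + 1 => ⁅dser S n, dser S n⁆

theorem map_derivedSeries {Γ H : Type*} [Group Γ] [Group H] (f : H →* Γ) (n : ℕ) :
    (derivedSeries H n).map f = dser f.range n := by
  induction n with
  | zero => rw [derivedSeries_zero, ← MonoidHom.range_eq_map]; rfl
  | succ n ih => rw [derivedSeries_succ, Subgroup.map_commutator, ih]; rfl

/-- Commutators of pairs of words in `ws`. -/
noncomputable def comms (ws : List (List ℕ)) (ps : List (List ℕ × List ℕ)) : List (List ℕ) :=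
  mapR (fun e => appendR (subW ws e.1) (appendR (subW ws e.2)
    (appendR (invW (subW ws e.1)) (invW (subW ws e.2))))) ps

theorem comms_mem {S : Subgroup (Equiv.Perm ℕ)} {k : ℕ} {ws : List (List ℕ)}
    (h : ∀ u ∈ ws, wp ns u ∈ dser S k) (ps : List (List ℕ × List ℕ)) :
    ∀ u ∈ comms ws ps, wp ns u ∈ dser S (k + 1) := by
  intro u hu
  rw [comms, mapR_eq] at hu
  obtain ⟨e, -, rfl⟩ := List.mem_map.1 hu
  have h1 := gen_le_iff.2 h
  rw [appendR_eq, appendR_eq, appendR_eq, wp_append, wp_append, wp_append, wp_invW, wp_invW, ← mul_assoc,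
    ← mul_assoc, ← commutatorElement_def]
  exact Subgroup.commutator_mem_commutator (h1 (subW_mem ns ws _)) (h1 (subW_mem ns ws _))

theorem mem_of_eqs (c : Ctx N w ns) {S : Subgroup (Equiv.Perm ℕ)} {ws : List (List ℕ)}
    (h : ∀ u ∈ ws, wp ns u ∈ S) {us : List (List ℕ)} {f : ℕ → ℕ}
    (hc : ∀ i < us.length, eqW N w ns (getL [] us i) (subL ws (f i)) = true) : ∀ u ∈ us, wp ns u ∈ S := by
  intro u hu
  obtain ⟨i, hi, rfl⟩ := List.getElem_of_mem hu
  have := wp_eq_of_eqW c (hc i hi)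
  rw [getL_eq, List.getD_eq_getElem _ _ hi] at this
  rw [this]
  exact gen_le_iff.2 h (subL_mem ns ws _)

theorem ne_one_of_evl {E : List ℕ → ℕ → ℕ} (hE : Evl N ns E) {u : List ℕ} {p : ℕ}
    (h : and' (Nat.blt p N) (not' (Nat.beq (E u p) p)) = true) : wp ns u ≠ 1 := fun e => by
  simp only [and'_eq_true, blt_iff, not'_eq_true] at h
  rw [hE u p h.1, e] at h
  simp at h

theorem derivedSeries_ne {H : Type*} [Group H] [Group.IsSolvable H] {k : ℕ} (h : derivedSeries H k ≠ ⊥) :
    derivedSeries H (k + 1) ≠ derivedSeries H k := fun e => by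
  obtain ⟨m, hm⟩ := Group.IsSolvable.solvable (G := H)
  have h1 : ∀ j, derivedSeries H (k + j) = derivedSeries H k := fun j => by
    induction j with
    | zero => rfl
    | succ j ih => rw [← add_assoc, derivedSeries_succ, ih, ← derivedSeries_succ, e]
  have h2 : ∀ j, derivedSeries H (m + j) = ⊥ := fun j => by
    induction j with
    | zero => exact hm
    | succ j ih => rw [← add_assoc, derivedSeries_succ, ih]; simp
  exact h (by rw [← h1 m, add_comm, h2])

/-- The final assembly: a maximal subgroup of order `m` whose derived series has a non-trivial term number `k`. -/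
theorem exists_coatom_dser [Finite G] {hs : List (List ℕ)} {Ms : List ℕ} {m k : ℕ}
    (h1 : ∃ H : Subgroup G, IsCoatom H ∧ gen ns hs ≤ H.map G.subtype ∧ ∀ M ∈ Ms, H.map G.subtype ≤ maskStab M)
    (h2 : UB ns G Ms [] 0 m) (h3 : m ≤ Nat.card (gen ns hs)) {u : List ℕ} (h4 : wp ns u ∈ dser (gen ns hs) k)
    (h5 : wp ns u ≠ 1) : ∃ H : Subgroup G, IsCoatom H ∧ Nat.card H = m ∧ derivedSeries H k ≠ ⊥ := by
  obtain ⟨H, a1, a2, a3⟩ := h1
  have a4 := h2 _ (Subgroup.map_subtype_le H) a3 (by simp) (by simp)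
  have : Finite (H.map G.subtype) := Finite.of_injective _ (Subgroup.inclusion_injective (Subgroup.map_subtype_le H))
  have a5 := Subgroup.eq_of_le_of_card_ge a2 (a4.trans h3)
  refine ⟨H, a1, ?_, fun e => h5 ?_⟩
  · rw [← Subgroup.card_map_of_injective G.subtype_injective]
    exact le_antisymm a4 (a5 ▸ h3)
  · have := map_derivedSeries (G.subtype.comp H.subtype) k
    rw [e, Subgroup.map_bot, MonoidHom.range_comp, Subgroup.range_subtype, ← a5] at this
    rwa [← this] at h4

end Cfsg.Agent.Comp
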